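import Cfsg.Agent.Lib.FQ.Pu2

/-!
# A family of pairs of involutions in a 2-group: automorphisms of odd order
-/

set_option autoImplicit false
set_option linter.unusedSectionVars false

namespace Cfsg.Lib.ND

open Subgroup Cfsg.Lib.BG Cfsg.Lib.Transfer Cfsg.Lib.FQ

variable {G : Type*} [Group G] [Finite G] {S : Subgroup G} {P : G → G → Prop} {u v w z : G}

theorem pw_pow (h : Pw S P) (a : P z u) (c : P z v) (i : ℕ) : P z (u * (u * v) ^ i) := by
  obtain ⟨-, uS, z2, u2, -, zu⟩ := h.mem _ _ a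
  obtain ⟨-, vS, -, v2, -, zv⟩ := h.mem _ _ c
  have uv : u * (u * v) = v := by rw [← mul_assoc, u2, one_mul]
  have iv : (u * v)⁻¹ * u = u * (u * v) := by rw [uv, mul_inv_rev, inv_mul_cancel_right, pu_inv v2]
  induction i using Nat.twoStepInduction with
  | zero => simpa using a
  | one => rwa [pow_one, uv]
  | more i ih _ =>
    have := h.cjz ih (inv_mem (mul_mem uS vS))
      (mem_cent1.1 (inv_mem (mul_mem (mem_cent1.2 zu.symm) (mem_cent1.2 zv.symm))))
    rwa [← mul_assoc, iv, inv_inv, mul_assoc, mul_assoc, ← pow_succ, ← pow_succ'] at this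

theorem pw_eq (h : Pw S P) (a : P z u) (b : P z v) (c : P z w) (e : v * u * v = w * u * w) : w = v ∨ w = v * z := by
  by_contra n
  push Not at n
  obtain ⟨r, hr, rr, -⟩ := h.l2 b c n.1 n.2
  obtain ⟨D, nD, H⟩ := h.sq _ _ a
  obtain ⟨-, vS, -, v2, -, zv⟩ := h.mem _ _ b
  obtain ⟨-, wS, -, w2, -, zw⟩ := h.mem _ _ c
  refine nD (rr ▸ H r (zpowers_le.2 ?_ hr))
  refine ⟨⟨mul_mem vS wS, mul_mem (mem_cent1.2 zv.symm) (mem_cent1.2 zw.symm)⟩, mem_cent1.2 ?_⟩
  calc v * w * u = v * (w * u * w) * w := by rw [mul_assoc v _ w, mul_assoc _ w w, w2, mul_one, mul_assoc]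
    _ = u * (v * w) := by rw [← e, ← mul_assoc v, ← mul_assoc v, v2, one_mul, mul_assoc]

theorem pw_chain (h : Pw S P) (a : P z u) (k : ℕ) : ∀ v w, P z v → P z w → (u * v) ^ 2 ^ k = 1 →
    (u * w) ^ 2 ^ k = 1 → u * v ∈ zpowers (u * w) ∨ u * w ∈ zpowers (u * v) := by
  obtain ⟨-, -, -, u2, -, -⟩ := h.mem _ _ a
  induction k with
  | zero => intro v w _ _ e _; left; rw [pow_zero, pow_one] at e; rw [e]; exact one_mem _
  | succ k ih =>
    have cj : ∀ v, P z v → P z (v * u * v) := fun v b => by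
      obtain ⟨-, vS, -, v2, -, zv⟩ := h.mem _ _ b
      have := h.cjz a vS zv.symm
      rwa [pu_inv v2] at this
    have sq : ∀ v : G, u * (v * u * v) = (u * v) ^ 2 := fun v => by rw [pow_two]; group
    have key : ∀ v w, P z v → P z w → (u * v) ^ 2 ∈ zpowers ((u * w) ^ 2) →
        u * v ∈ zpowers (u * w) ∨ u * w ∈ zpowers (u * v) := fun v w b c e => by
      obtain ⟨j, hj⟩ := (Submonoid.mem_powers_iff _ _).1 (mem_powers_iff_mem_zpowers.2 e)
      have d := pw_pow h a c j
      have e1 : u * (u * (u * w) ^ j) = (u * w) ^ j := by rw [← mul_assoc, u2, one_mul]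
      have m : (u * w) ^ j ∈ zpowers (u * w) := pow_mem (mem_zpowers _) j
      rcases pw_eq h a d b (mul_left_cancel (a := u) (by rw [sq, sq, e1, ← hj, ← pow_mul, ← pow_mul, mul_comm]))
        with q | q
      · exact .inl (by rw [q, e1]; exact m)
      by_cases w1 : w = u
      · exact .inr (by rw [w1, u2]; exact one_mem _)
      refine .inl ?_
      rw [q, ← mul_assoc, e1]
      refine mul_mem m ?_
      by_cases w2 : w = u * z
      · rw [w2, ← mul_assoc, u2, one_mul]; exact mem_zpowers z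
      · obtain ⟨r, hr, rr, -⟩ := h.l2 a c w1 w2
        exact rr ▸ mul_mem hr hr
    intro v w b c e f
    rw [pow_succ', pow_mul, ← sq] at e f
    rcases ih _ _ (cj v b) (cj w c) e f with q | q <;> rw [sq, sq] at q
    · exact key v w b c q
    · exact (key w v c b q).symm

/-- An automorphism of odd order that normalizes a cyclic 2-group centralizes it. -/
theorem fix_cyc {α : MulAut G} (o : Odd (orderOf α)) {k : ℕ} (hk : v ^ 2 ^ k = 1) (e : α v ∈ zpowers v) : α v = v := by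
  obtain ⟨j, hj⟩ := mem_zpowers_iff.1 e
  have it : ∀ n : ℕ, (α ^ n) v = v ^ j ^ n := fun n => by
    induction n with
    | zero => simp
    | succ n ih => rw [pow_succ', MulAut.mul_apply, ih, map_zpow, ← hj, ← zpow_mul, ← pow_succ']
  have h1 := it (orderOf α)
  rw [pow_orderOf_eq_one, MulAut.one_apply] at h1
  have h2 : (orderOf v : ℤ) ∣ j ^ orderOf α - 1 := by
    rw [orderOf_dvd_iff_zpow_eq_one, zpow_sub, ← h1, zpow_one, mul_inv_cancel]
  obtain ⟨i, -, hi⟩ := (Nat.dvd_prime_pow Nat.prime_two).1 (orderOf_dvd_of_pow_eq_one hk)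
  have h3 : Odd (∑ i ∈ Finset.range (orderOf α), j ^ i) := by
    obtain ⟨m, hm⟩ := o
    rw [hm]
    clear hm
    induction m with
    | zero => simp
    | succ m ih =>
      rw [show 2 * (m + 1) + 1 = 2 * m + 1 + 1 + 1 by ring, Finset.sum_range_succ, Finset.sum_range_succ, add_assoc]
      refine ih.add_even ?_
      rw [pow_succ j (2 * m + 1), pow_succ j (2 * m), show j ^ (2 * m) * j + j ^ (2 * m) * j * j =
        j ^ (2 * m) * (j * (j + 1)) by ring]
      exact (Int.even_mul_succ_self j).mul_left _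
  rw [← geom_sum_mul, hi] at h2
  have h4 : ((2 ^ i : ℕ) : ℤ) ∣ j - 1 := by
    refine IsCoprime.dvd_of_dvd_mul_left ?_ h2
    rw [Nat.cast_pow]
    exact (Int.isCoprime_two_left.2 h3).pow_left
  rw [← hi, orderOf_dvd_iff_zpow_eq_one, zpow_sub, zpow_one, mul_inv_eq_one] at h4
  rw [← hj, h4]

theorem pw_fix (h : Pw S P) {α : MulAut G} (o : Odd (orderOf α)) (a : P z u) (b : P z (α u)) (c : P z (α⁻¹ u)) :
    α u = u := by
  obtain ⟨-, uS, -, u2, -, -⟩ := h.mem _ _ a
  obtain ⟨-, vS, -, v2, -, -⟩ := h.mem _ _ b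
  obtain ⟨-, wS, -, -, -, -⟩ := h.mem _ _ c
  obtain ⟨k, hk⟩ := h.pg ⟨_, mul_mem uS wS⟩
  replace hk : (u * α⁻¹ u) ^ 2 ^ k = 1 := congrArg Subtype.val hk
  have e : α (u * α⁻¹ u) = (u * α u)⁻¹ := by
    rw [map_mul, MulAut.apply_inv_self, mul_inv_rev, pu_inv u2, pu_inv v2]
  have hk' : (u * α u) ^ 2 ^ k = 1 := by rw [← inv_eq_one, ← inv_pow, ← e, ← map_pow, hk, map_one]
  have cd : Nat.card (zpowers (u * α u)) = Nat.card (zpowers (u * α⁻¹ u)) := by
    rw [Nat.card_zpowers, Nat.card_zpowers, ← orderOf_inv, ← e, MulEquiv.orderOf_eq]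
  have m : u * α u ∈ zpowers (u * α⁻¹ u) := (pw_chain h a k _ _ b c hk' hk).elim id fun q =>
    (eq_of_le_of_card_le (zpowers_le.2 q) cd.le).ge (mem_zpowers _)
  have f := fix_cyc o hk (e ▸ inv_mem m)
  have f' : α (u * α u) = u * α u := by rw [← inv_inj, ← map_inv, ← e, f, f]
  have g : α u = u * (u * α u) := by rw [← mul_assoc, u2, one_mul]
  generalize u * α u = r at hk' f' g
  have it : ∀ n : ℕ, (α ^ n) u = u * r ^ n := fun n => by
    induction n with
    | zero => simp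
    | succ n ih => rw [pow_succ', MulAut.mul_apply, ih, map_mul, map_pow, f', g, mul_assoc, ← pow_succ']
  have h1 := it (orderOf α)
  rw [pow_orderOf_eq_one, MulAut.one_apply, left_eq_mul] at h1
  rw [g, orderOf_eq_one_iff.1 (Nat.eq_one_of_dvd_coprimes (Nat.Coprime.pow_left k (Nat.coprime_two_left.2 o))
    (orderOf_dvd_of_pow_eq_one hk') (orderOf_dvd_of_pow_eq_one h1)), mul_one]

end Cfsg.Lib.ND
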